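import Mathlib

/-!
# Subgroups of the unitriangular group: at most `⌊r²/4⌋` generators

We order the positions of `r × r` matrices by the additive weight `wt i j = 2^j - 2^i`.  The leading
positions of a group of unitriangular matrices that are not products of two other leading positions
form a triangle-free graph, hence there are at most `r² / 4` of them (Mantel), and the corresponding
elements generate.
-/

set_option autoImplicit false
set_option linter.unusedSectionVars false
set_option linter.unusedVariables false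
set_option linter.style.haveILetI false

namespace Cfsg.Agent.Lib.PRank

open Subgroup
open scoped commutatorElement

universe u

/-- Matrices over `ZMod p`. -/
abbrev Mat (r p : ℕ) := Matrix (Fin r) (Fin r) (ZMod p)

/-- Upper unitriangular matrices. -/
def UT {r p : ℕ} (x : Mat r p) : Prop := (∀ i, x i i = 1) ∧ ∀ i j, j < i → x i j = 0

/-- The weight of a position. -/
def wt {r : ℕ} (i j : Fin r) : ℕ := 2 ^ (j : ℕ) - 2 ^ (i : ℕ)

section wt

variable {r : ℕ}

theorem two_pow_le_of_fin {i j : Fin r} (h : i ≤ j) : 2 ^ (i : ℕ) ≤ 2 ^ (j : ℕ) :=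
  Nat.pow_le_pow_right (by norm_num) h

theorem two_pow_lt_of_fin {i j : Fin r} (h : i < j) : 2 ^ (i : ℕ) < 2 ^ (j : ℕ) :=
  Nat.pow_lt_pow_right (by norm_num) h

theorem wt_add {i j k : Fin r} (hij : i ≤ j) (hjk : j ≤ k) : wt i j + wt j k = wt i k := by
  have h1 := two_pow_le_of_fin hij
  have h2 := two_pow_le_of_fin hjk
  unfold wt
  omega

theorem wt_pos {i j : Fin r} (h : i < j) : 0 < wt i j := by
  have h1 := two_pow_lt_of_fin h
  unfold wt
  omega

theorem wt_lt_aux {i j u v : Fin r} (h2 : u < v) (hjv : j < v) (hij : i < j) :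
    wt i j < wt u v := by
  have h0 : 0 < 2 ^ (i : ℕ) := by positivity
  have h1 := two_pow_lt_of_fin hij
  obtain ⟨w, hw⟩ : ∃ w, (v : ℕ) = w + 1 := ⟨(v : ℕ) - 1, by
    have : (j : ℕ) < v := hjv
    omega⟩
  have h3 : 2 ^ (j : ℕ) ≤ 2 ^ w := Nat.pow_le_pow_right (by norm_num) (by
    have : (j : ℕ) < v := hjv
    omega)
  have h4 : 2 ^ (u : ℕ) ≤ 2 ^ w := Nat.pow_le_pow_right (by norm_num) (by
    have : (u : ℕ) < v := h2
    omega)
  have h5 : 2 ^ (v : ℕ) = 2 * 2 ^ w := by rw [hw, pow_succ]; ring
  unfold wt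
  omega

theorem wt_inj {i j u v : Fin r} (h1 : i < j) (h2 : u < v) (h : wt i j = wt u v) :
    i = u ∧ j = v := by
  have hjv : j = v := by
    rcases lt_trichotomy j v with hlt | heq | hgt
    · exact absurd h (wt_lt_aux h2 hlt h1).ne
    · exact heq
    · exact absurd h (wt_lt_aux h1 hgt h2).ne'
  subst hjv
  refine ⟨?_, rfl⟩
  have h3 := two_pow_lt_of_fin h1
  have h4 := two_pow_lt_of_fin h2
  have h5 : 2 ^ (i : ℕ) = 2 ^ (u : ℕ) := by
    unfold wt at h
    omega
  exact Fin.ext (Nat.pow_right_injective (le_refl 2) h5)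

end wt

/-- All positions of weight below `t` vanish. -/
def Low {r p : ℕ} (x : Mat r p) (t : ℕ) : Prop := ∀ i j, i < j → wt i j < t → x i j = 0

/-- The matrix `x` has its leading position at `(i, j)`. -/
def Lead {r p : ℕ} (x : Mat r p) (i j : Fin r) : Prop := i < j ∧ x i j ≠ 0 ∧ Low x (wt i j)

section mat

variable {r p : ℕ}

theorem mul_entry {x y : Mat r p} (hx : UT x) (hy : UT y) {t : ℕ} (hxl : Low x t)
    {i j : Fin r} (hij : i < j) (hw : wt i j ≤ t) : (x * y) i j = x i j + y i j := by
  rw [Matrix.mul_apply, add_comm]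
  rw [Finset.sum_eq_add i j hij.ne]
  · rw [hx.1 i, hy.1 j, one_mul, mul_one]
  · rintro l - ⟨hli, hlj⟩
    rcases lt_or_gt_of_ne hli with h | h
    · rw [hx.2 i l h, zero_mul]
    · rcases lt_or_gt_of_ne hlj with h' | h'
      · have hwt : wt i l < wt i j := by
          have := wt_add h.le h'.le
          have := wt_pos h'
          omega
        rw [hxl i l h (by omega), zero_mul]
      · rw [hy.2 l j h', mul_zero]
  · simp
  · simp

theorem mul_low {x y : Mat r p} (hx : UT x) (hy : UT y) {t : ℕ} (hxl : Low x t) (hyl : Low y t) :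
    Low (x * y) t := by
  intro i j hij hw
  rw [mul_entry hx hy hxl hij hw.le, hxl i j hij hw, hyl i j hij hw, add_zero]

theorem one_low (t : ℕ) : Low (1 : Mat r p) t := by
  intro i j hij _
  exact Matrix.one_apply_ne hij.ne

theorem offd_le {x : Mat r p} (hx : UT x) {u m : Fin r} (h : m ≤ u) : (x - 1) u m = 0 := by
  rcases h.lt_or_eq with h | rfl
  · rw [Matrix.sub_apply, hx.2 u m h, Matrix.one_apply_ne h.ne', sub_zero]
  · rw [Matrix.sub_apply, hx.1 m, Matrix.one_apply_eq, sub_self]

theorem offd_lt {x : Mat r p} {u m : Fin r} (h : u < m) : (x - 1) u m = x u m := by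
  rw [Matrix.sub_apply, Matrix.one_apply_ne h.ne, sub_zero]

/-- A nonzero term of a product of off-diagonal parts. -/
theorem term_ne {x y : Mat r p} (hx : UT x) (hy : UT y) {α β : ℕ} (hxl : Low x α) (hyl : Low y β)
    {u m l : Fin r} (h : (x - 1) u m * (y - 1) m l ≠ 0) :
    u < m ∧ m < l ∧ α ≤ wt u m ∧ β ≤ wt m l := by
  have h1 : (x - 1) u m ≠ 0 := left_ne_zero_of_mul h
  have h2 : (y - 1) m l ≠ 0 := right_ne_zero_of_mul h
  have hum : u < m := by
    by_contra hc
    exact h1 (offd_le hx (not_lt.mp hc))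
  have hml : m < l := by
    by_contra hc
    exact h2 (offd_le hy (not_lt.mp hc))
  refine ⟨hum, hml, ?_, ?_⟩
  · by_contra hc
    apply h1
    rw [offd_lt hum]
    exact hxl u m hum (not_le.mp hc)
  · by_contra hc
    apply h2
    rw [offd_lt hml]
    exact hyl m l hml (not_le.mp hc)

variable [hp : Fact p.Prime]

/-- The additive commutator of two matrices with leading positions `(i, j)` and `(j, k)`. -/
theorem comm_entries {x y : Mat r p} (hx : UT x) (hy : UT y) {i j k : Fin r} (hxl : Lead x i j)
    (hyl : Lead y j k) :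
    (∀ u l, u < l → wt u l < wt i k → (x * y - y * x) u l = 0) ∧
      (x * y - y * x) i k = x i j * y j k := by
  obtain ⟨hij, hxne, hxL⟩ := hxl
  obtain ⟨hjk, hyne, hyL⟩ := hyl
  have hik : i < k := hij.trans hjk
  have hwt : wt i j + wt j k = wt i k := wt_add hij.le hjk.le
  have hD : x * y - y * x = (x - 1) * (y - 1) - (y - 1) * (x - 1) := by
    simp only [sub_mul, mul_sub, one_mul, mul_one]
    abel
  rw [hD]
  constructor
  · intro u l hul hw
    rw [Matrix.sub_apply, Matrix.mul_apply, Matrix.mul_apply]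
    rw [Finset.sum_eq_zero, Finset.sum_eq_zero, sub_zero]
    · intro m _
      by_contra hc
      obtain ⟨h1, h2, h3, h4⟩ := term_ne hy hx hyL hxL hc
      have := wt_add h1.le h2.le
      omega
    · intro m _
      by_contra hc
      obtain ⟨h1, h2, h3, h4⟩ := term_ne hx hy hxL hyL hc
      have := wt_add h1.le h2.le
      omega
  · rw [Matrix.sub_apply, Matrix.mul_apply, Matrix.mul_apply]
    have h1 : ∑ m, (y - 1) i m * (x - 1) m k = 0 := by
      apply Finset.sum_eq_zero
      intro m _
      by_contra hc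
      obtain ⟨h1, h2, h3, h4⟩ := term_ne hy hx hyL hxL hc
      have h5 := wt_add h1.le h2.le
      have h6 : wt i m = wt j k := by omega
      exact hij.ne (wt_inj h1 hjk h6).1
    rw [h1, sub_zero, Finset.sum_eq_single j, offd_lt hij, offd_lt hjk]
    · intro m _ hm
      by_contra hc
      obtain ⟨h1, h2, h3, h4⟩ := term_ne hx hy hxL hyL hc
      have h5 := wt_add h1.le h2.le
      have h6 : wt i m = wt i j := by omega
      exact hm (wt_inj h1 hij h6).2
    · simp

end mat

section group

variable {r p : ℕ} {P : Type u} [Group P] (ρ : P →* Mat r p)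

/-- The commutator of elements with leading positions `(i, j)`, `(j, k)` has leading position
`(i, k)`. -/
theorem comm_lead [hp : Fact p.Prime] (hU : ∀ g, UT (ρ g)) {x y : P} {i j k : Fin r}
    (hx : Lead (ρ x) i j) (hy : Lead (ρ y) j k) : Lead (ρ ⁅x, y⁆) i k := by
  have hik : i < k := hx.1.trans hy.1
  obtain ⟨hD1, hD2⟩ := comm_entries (hU x) (hU y) hx hy
  let D := ρ x * ρ y - ρ y * ρ x
  let Z := ρ ((y * x)⁻¹)
  have hcomm : ρ ⁅x, y⁆ - 1 = D * Z := by
    have h1 : ⁅x, y⁆ = (x * y) * (y * x)⁻¹ := by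
      rw [commutatorElement_def]; group
    have h2 : ρ (y * x) * Z = 1 := by
      rw [← map_mul, mul_inv_cancel, map_one]
    have h3 : ρ (x * y) * Z = ρ ⁅x, y⁆ := by rw [h1, map_mul ρ (x * y) ((y * x)⁻¹)]
    show _ = (ρ x * ρ y - ρ y * ρ x) * Z
    rw [sub_mul, ← map_mul ρ x y, ← map_mul ρ y x, h3, h2]
  -- entries of `D * Z`
  have hE : ∀ u w, u < w → wt u w ≤ wt i k → ρ ⁅x, y⁆ u w = D u w := by
    intro u w huw hw
    have h1 : ρ ⁅x, y⁆ u w = (ρ ⁅x, y⁆ - 1) u w := (offd_lt huw).symm
    rw [h1, hcomm, Matrix.mul_apply, Finset.sum_eq_single w]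
    · have : Z w w = 1 := (hU _).1 w
      rw [this, mul_one]
    · intro l _ hl
      rcases lt_or_gt_of_ne hl with h | h
      · -- `l < w`
        by_cases hul : u < l
        · have hw2 : wt u l < wt u w := by
            have := wt_add hul.le h.le
            have := wt_pos h
            omega
          have : D u l = 0 := hD1 u l hul (by omega)
          rw [this, zero_mul]
        · have hlu : l ≤ u := not_lt.mp hul
          have : D u l = 0 := by
            show (ρ x * ρ y - ρ y * ρ x) u l = 0
            have hD' : ρ x * ρ y - ρ y * ρ x = (ρ x - 1) * (ρ y - 1) - (ρ y - 1) * (ρ x - 1) := by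
              simp only [sub_mul, mul_sub, one_mul, mul_one]
              abel
            rw [hD', Matrix.sub_apply, Matrix.mul_apply, Matrix.mul_apply,
              Finset.sum_eq_zero, Finset.sum_eq_zero, sub_zero]
            · intro m _
              by_contra hc
              have h1 : (ρ y - 1) u m ≠ 0 := left_ne_zero_of_mul hc
              have h2 : (ρ x - 1) m l ≠ 0 := right_ne_zero_of_mul hc
              have h3 : u < m := by
                by_contra hc2
                exact h1 (offd_le (hU y) (not_lt.mp hc2))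
              have h4 : m < l := by
                by_contra hc2
                exact h2 (offd_le (hU x) (not_lt.mp hc2))
              exact absurd (h3.trans h4) hul
            · intro m _
              by_contra hc
              have h1 : (ρ x - 1) u m ≠ 0 := left_ne_zero_of_mul hc
              have h2 : (ρ y - 1) m l ≠ 0 := right_ne_zero_of_mul hc
              have h3 : u < m := by
                by_contra hc2
                exact h1 (offd_le (hU x) (not_lt.mp hc2))
              have h4 : m < l := by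
                by_contra hc2
                exact h2 (offd_le (hU y) (not_lt.mp hc2))
              exact absurd (h3.trans h4) hul
          rw [this, zero_mul]
      · have : Z l w = 0 := (hU _).2 l w h
        rw [this, mul_zero]
    · simp
  refine ⟨hik, ?_, ?_⟩
  · rw [hE i k hik le_rfl]
    show (ρ x * ρ y - ρ y * ρ x) i k ≠ 0
    rw [hD2]
    exact mul_ne_zero hx.2.1 hy.2.1
  · intro u l hul hw
    rw [hE u l hul hw.le]
    exact hD1 u l hul hw

/-- Powers stay in the level, with multiplied entries. -/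
theorem pow_level (hU : ∀ g, UT (ρ g)) {t : ℕ} {y : P} (hy : Low (ρ y) t) (m : ℕ) :
    Low (ρ (y ^ m)) t ∧ ∀ i j, i < j → wt i j = t → ρ (y ^ m) i j = (m : ZMod p) * ρ y i j := by
  induction m with
  | zero =>
    constructor
    · simpa using one_low t
    · intro i j hij _
      simp [Matrix.one_apply_ne hij.ne]
  | succ m ih =>
    have h1 : ρ (y ^ (m + 1)) = ρ (y ^ m) * ρ y := by rw [pow_succ, map_mul]
    constructor
    · rw [h1]
      exact mul_low (hU _) (hU _) ih.1 hy
    · intro i j hij hw
      rw [h1, mul_entry (hU _) (hU _) ih.1 hij hw.le, ih.2 i j hij hw]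
      push_cast
      ring

end group

/-- **Mantel**: a triangle-free set of ordered positions has at most `r² / 4` elements. -/
theorem mantel {r : ℕ} (N : Fin r → Fin r → Prop) (hlt : ∀ i j, N i j → i < j)
    (htri : ∀ i j k, N i j → N j k → ¬ N i k) (T : Finset (Fin r × Fin r))
    (hT : ∀ q ∈ T, N q.1 q.2) : T.card ≤ r ^ 2 / 4 := by
  classical
  let G : SimpleGraph (Fin r) :=
    { Adj := fun u v => N u v ∨ N v u
      symm := ⟨fun u v h => Or.symm h⟩
      loopless := ⟨fun u h => by
        rcases h with h | h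
        · exact absurd (hlt _ _ h) (lt_irrefl _)
        · exact absurd (hlt _ _ h) (lt_irrefl _)⟩ }
  have hcf : G.CliqueFree 3 := by
    intro s hs
    rw [SimpleGraph.is3Clique_iff] at hs
    obtain ⟨a, b, c, hab, hac, hbc, -⟩ := hs
    rcases hab with h1 | h1 <;> rcases hac with h2 | h2 <;> rcases hbc with h3 | h3
    · exact htri a b c h1 h3 h2
    · exact htri a c b h2 h3 h1
    · exact absurd ((hlt _ _ h1).trans ((hlt _ _ h3).trans (hlt _ _ h2))) (lt_irrefl _)
    · exact htri c a b h2 h1 h3
    · exact htri b a c h1 h2 h3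
    · exact absurd ((hlt _ _ h1).trans ((hlt _ _ h2).trans (hlt _ _ h3))) (lt_irrefl _)
    · exact htri b c a h3 h2 h1
    · exact htri c b a h3 h1 h2
  have h1 := SimpleGraph.CliqueFree.card_edgeFinset_le (r := 2) hcf
  simp only [Fintype.card_fin] at h1
  have h2 : T.card ≤ G.edgeFinset.card := by
    apply Finset.card_le_card_of_injOn (fun q => s(q.1, q.2))
    · intro q hq
      have hq' : N q.1 q.2 := hT q hq
      simp only [Finset.mem_coe, SimpleGraph.mem_edgeFinset, SimpleGraph.mem_edgeSet]
      exact Or.inl hq'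
    · intro q hq q' hq' h
      have h3 := hlt _ _ (hT q hq)
      have h4 := hlt _ _ (hT q' hq')
      simp only [Sym2.eq_iff] at h
      rcases h with ⟨h5, h6⟩ | ⟨h5, h6⟩
      · exact Prod.ext h5 h6
      · rw [h5, h6] at h3
        exact absurd (h3.trans h4) (lt_irrefl _)
  refine h2.trans (h1.trans ?_)
  have h5 : r % 2 = 0 ∨ r % 2 = 1 := Nat.mod_two_eq_zero_or_one r
  rcases h5 with h5 | h5
  · rw [h5]
    simp
  · rw [h5]
    simp only [Nat.choose, add_zero]
    apply Nat.div_le_div_right
    simp

/-- **Patterson's bound**: a group of unitriangular `r × r` matrices over `𝔽_p` needs at most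
`r² / 4` generators. -/
theorem patterson {r p : ℕ} [hp : Fact p.Prime] {P : Type u} [Group P] (ρ : P →* Mat r p)
    (hU : ∀ g, UT (ρ g)) (H : Subgroup P) :
    ∃ S : Finset P, (S : Set P) ⊆ H ∧ S.card ≤ r ^ 2 / 4 ∧
      ∀ h ∈ H, ∃ h' ∈ closure (S : Set P), ρ h' = ρ h := by
  classical
  let LH : Fin r → Fin r → Prop := fun i j => ∃ h ∈ H, Lead (ρ h) i j
  let N : Fin r → Fin r → Prop := fun i k => LH i k ∧ ¬ ∃ j, LH i j ∧ LH j k
  let T : Finset (Fin r × Fin r) := Finset.univ.filter (fun q => N q.1 q.2)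
  have hT : T.card ≤ r ^ 2 / 4 := by
    apply mantel N
    · rintro i j ⟨⟨h, -, hL⟩, -⟩
      exact hL.1
    · intro i j k h1 h2 h3
      exact h3.2 ⟨j, h1.1, h2.1⟩
    · intro q hq
      exact (Finset.mem_filter.mp hq).2
  have hch : ∀ q : Fin r × Fin r, ∃ h : P, q ∈ T → h ∈ H ∧ Lead (ρ h) q.1 q.2 := by
    intro q
    by_cases hq : q ∈ T
    · obtain ⟨h, hH, hL⟩ := (Finset.mem_filter.mp hq).2.1
      exact ⟨h, fun _ => ⟨hH, hL⟩⟩
    · exact ⟨1, fun h => absurd h hq⟩
  choose f hf using hch
  let S : Finset P := T.image f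
  have hSH : (S : Set P) ⊆ H := by
    intro x hx
    obtain ⟨q, hq, rfl⟩ := Finset.mem_image.mp (Finset.mem_coe.mp hx)
    exact (hf q hq).1
  let H' : Subgroup P := closure (S : Set P)
  have hH'H : H' ≤ H := (closure_le _).mpr hSH
  have claim1 : ∀ n : ℕ, ∀ i k, wt i k ≤ n → LH i k → ∃ y ∈ H', Lead (ρ y) i k := by
    intro n
    induction n with
    | zero =>
      rintro i k hw ⟨h, -, hL⟩
      have := wt_pos hL.1
      omega
    | succ n ih =>
      intro i k hw hL
      by_cases hcomp : ∃ j, LH i j ∧ LH j k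
      · obtain ⟨j, h1, h2⟩ := hcomp
        have hij : i < j := by
          obtain ⟨_, _, hh⟩ := h1
          exact hh.1
        have hjk : j < k := by
          obtain ⟨_, _, hh⟩ := h2
          exact hh.1
        have hsum := wt_add hij.le hjk.le
        have hp1 := wt_pos hij
        have hp2 := wt_pos hjk
        obtain ⟨y1, hy1, hL1⟩ := ih i j (by omega) h1
        obtain ⟨y2, hy2, hL2⟩ := ih j k (by omega) h2
        refine ⟨⁅y1, y2⁆, ?_, comm_lead ρ hU hL1 hL2⟩
        rw [commutatorElement_def]
        exact H'.mul_mem (H'.mul_mem (H'.mul_mem hy1 hy2) (H'.inv_mem hy1)) (H'.inv_mem hy2)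
      · have hq : (i, k) ∈ T := Finset.mem_filter.mpr ⟨Finset.mem_univ _, hL, hcomp⟩
        refine ⟨f (i, k), subset_closure (Finset.mem_coe.mpr (Finset.mem_image_of_mem f hq)), ?_⟩
        exact (hf (i, k) hq).2
  have claim1' : ∀ i k, LH i k → ∃ y ∈ H', Lead (ρ y) i k := fun i k => claim1 _ i k le_rfl
  have claim2 : ∀ n t : ℕ, t + n = 2 ^ r → ∀ h ∈ H, Low (ρ h) t → ∃ h' ∈ H', ρ h' = ρ h := by
    intro n
    induction n with
    | zero =>
      intro t ht h _ hL
      refine ⟨1, H'.one_mem, ?_⟩
      rw [map_one]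
      ext i j
      rcases lt_trichotomy i j with hij | rfl | hij
      · rw [Matrix.one_apply_ne hij.ne, hL i j hij]
        have h1 : 2 ^ (j : ℕ) < 2 ^ r := Nat.pow_lt_pow_right (by norm_num) j.2
        have h2 : wt i j ≤ 2 ^ (j : ℕ) := Nat.sub_le _ _
        omega
      · rw [Matrix.one_apply_eq, (hU h).1 i]
      · rw [Matrix.one_apply_ne hij.ne', (hU h).2 i j hij]
    | succ n ih =>
      intro t ht h hH hL
      have hQ := ih (t + 1) (by omega)
      by_cases hpos : ∃ i j, i < j ∧ wt i j = t ∧ ρ h i j ≠ 0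
      · obtain ⟨i, j, hij, hw, hne⟩ := hpos
        have hLead : Lead (ρ h) i j := ⟨hij, hne, hw ▸ hL⟩
        obtain ⟨y, hy, hyL⟩ := claim1' i j ⟨h, hH, hLead⟩
        have hyLow : Low (ρ y) t := hw ▸ hyL.2.2
        have hβ : ρ y i j ≠ 0 := hyL.2.1
        let c : ZMod p := -(ρ h i j) / ρ y i j
        let m : ℕ := c.val
        have hm : (m : ZMod p) = c := ZMod.natCast_zmod_val c
        obtain ⟨hpl, hpe⟩ := pow_level ρ hU hyLow m
        have h1 : Low (ρ (h * y ^ m)) (t + 1) := by
          intro u v huv hwv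
          rw [map_mul]
          by_cases hv : wt u v < t
          · exact mul_low (hU _) (hU _) hL hpl u v huv hv
          · have hv' : wt u v = t := by omega
            obtain ⟨rfl, rfl⟩ := wt_inj huv hij (hv'.trans hw.symm)
            rw [mul_entry (hU _) (hU _) hL huv hv'.le, hpe u v huv hv', hm]
            show ρ h u v + (-(ρ h u v) / ρ y u v) * ρ y u v = 0
            rw [div_mul_cancel₀ _ hβ]
            ring
        obtain ⟨h₁, hh₁, hρ⟩ := hQ (h * y ^ m) (H.mul_mem hH (H.pow_mem (hH'H hy) m)) h1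
        refine ⟨h₁ * (y ^ m)⁻¹, H'.mul_mem hh₁ (H'.inv_mem (H'.pow_mem hy m)), ?_⟩
        rw [map_mul, hρ, ← map_mul]
        simp
      · push Not at hpos
        have h1 : Low (ρ h) (t + 1) := by
          intro u v huv hwv
          by_cases hv : wt u v < t
          · exact hL u v huv hv
          · exact hpos u v huv (by omega)
        exact hQ h hH h1
  refine ⟨S, hSH, (Finset.card_image_le).trans hT, ?_⟩
  intro h hH
  exact claim2 (2 ^ r) 0 (by omega) h hH (by
    intro i j _ hw
    omega)

end Cfsg.Agent.Lib.PRank
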