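import Mathlib
import Cfsg.Agent.Lib.PRank.Levels
import Cfsg.Agent.Lib.PGroup.Basic

/-!
# Unitriangular form of a `p`-group acting on an `𝔽_p`-space
-/

set_option autoImplicit false
set_option linter.unusedSectionVars false
set_option linter.unusedVariables false
set_option linter.style.haveILetI false

namespace Cfsg.Agent.Lib.PRank

open Subgroup

universe u v

variable {p : ℕ} [hp : Fact p.Prime]

section flag

variable {P : Type u} [Group P] [Finite P] {V : Type v} [AddCommGroup V] [Module (ZMod p) V]
  [Finite V]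

theorem flag_step (hP : IsPGroup p P) (φ : P →* Module.End (ZMod p) V) (n : ℕ)
    (hn : n + 1 ≤ Module.finrank (ZMod p) V) (e : ℕ → V)
    (hli : LinearIndependent (ZMod p) (fun i : Fin n => e i))
    (hinv : ∀ j < n, ∀ g, φ g (e j) - e j ∈ Submodule.span (ZMod p) (e '' {l | l < j})) :
    ∃ v : V, v ∉ Submodule.span (ZMod p) (e '' {l | l < n}) ∧
      ∀ g, φ g v - v ∈ Submodule.span (ZMod p) (e '' {l | l < n}) := by
  classical
  haveI : Module.Finite (ZMod p) V := Module.Finite.of_finite
  let U : Submodule (ZMod p) V := Submodule.span (ZMod p) (e '' {l | l < n})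
  have hU : ∀ g, U ≤ U.comap (φ g) := by
    intro g
    rw [show U = Submodule.span (ZMod p) (e '' {l | l < n}) from rfl, Submodule.span_le]
    rintro _ ⟨l, hl, rfl⟩
    have hl' : l < n := hl
    have h1 := hinv l hl' g
    have h2 : Submodule.span (ZMod p) (e '' {l' | l' < l}) ≤ U := by
      apply Submodule.span_mono
      apply Set.image_mono
      intro l' hl''
      exact lt_trans hl'' hl'
    have h3 : e l ∈ U := Submodule.subset_span ⟨l, hl, rfl⟩
    have h4 := U.add_mem (h2 h1) h3
    simpa using h4
  let act : P → (V ⧸ U) → (V ⧸ U) := fun g w => Submodule.mapQ U U (φ g) (hU g) w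
  letI : MulAction P (V ⧸ U) :=
    { smul := act
      one_smul := by
        intro w
        obtain ⟨v, rfl⟩ := Submodule.Quotient.mk_surjective U w
        show Submodule.mapQ U U (φ 1) (hU 1) (Submodule.Quotient.mk v) = _
        rw [Submodule.mapQ_apply, map_one]
        rfl
      mul_smul := by
        intro a b w
        obtain ⟨v, rfl⟩ := Submodule.Quotient.mk_surjective U w
        show Submodule.mapQ U U (φ (a * b)) (hU _) (Submodule.Quotient.mk v) =
          Submodule.mapQ U U (φ a) (hU _) (Submodule.mapQ U U (φ b) (hU _) (Submodule.Quotient.mk v))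
        rw [Submodule.mapQ_apply, Submodule.mapQ_apply, Submodule.mapQ_apply, map_mul]
        rfl }
  have hrange : e '' {l | l < n} = Set.range (fun i : Fin n => e i) := by
    ext x
    constructor
    · rintro ⟨l, hl, rfl⟩
      exact ⟨⟨l, hl⟩, rfl⟩
    · rintro ⟨i, rfl⟩
      exact ⟨i, i.2, rfl⟩
  have hUtop : U ≠ ⊤ := by
    intro h
    have h1 := finrank_range_le_card (R := ZMod p) (fun i : Fin n => e i)
    rw [Set.finrank, ← hrange] at h1
    have h2 : Module.finrank (ZMod p) U = Module.finrank (ZMod p) V := by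
      rw [h]; exact finrank_top _ _
    simp only [Fintype.card_fin] at h1
    have h3 : Module.finrank (ZMod p) (Submodule.span (ZMod p) (e '' {l | l < n})) =
      Module.finrank (ZMod p) V := h2
    omega
  haveI hnt : Nontrivial (V ⧸ U) := Submodule.Quotient.nontrivial_iff.mpr hUtop
  haveI hfinq : Finite (V ⧸ U) := Finite.of_surjective (Submodule.Quotient.mk (p := U))
    (Submodule.Quotient.mk_surjective U)
  have hdvd : p ∣ Nat.card (V ⧸ U) := by
    obtain ⟨w, hw⟩ := exists_ne (0 : V ⧸ U)
    have h1 : p • w = 0 := by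
      rw [← Nat.cast_smul_eq_nsmul (ZMod p), ZMod.natCast_self, zero_smul]
    have h2 := addOrderOf_eq_prime h1 hw
    have h3 := addOrderOf_dvd_natCard w
    rwa [h2] at h3
  have hfix0 : (0 : V ⧸ U) ∈ MulAction.fixedPoints P (V ⧸ U) := by
    intro g
    show Submodule.mapQ U U (φ g) (hU g) 0 = 0
    simp
  obtain ⟨b, hb, hb0⟩ := hP.exists_fixed_point_of_prime_dvd_card_of_fixed_point (V ⧸ U) hdvd hfix0
  obtain ⟨v, rfl⟩ := Submodule.Quotient.mk_surjective U b
  refine ⟨v, ?_, ?_⟩
  · intro hv
    apply hb0
    exact ((Submodule.Quotient.mk_eq_zero U).mpr hv).symm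
  · intro g
    have h1 := hb g
    have h2 : Submodule.mapQ U U (φ g) (hU g) (Submodule.Quotient.mk v) = Submodule.Quotient.mk v :=
      h1
    rw [Submodule.mapQ_apply, Submodule.Quotient.eq] at h2
    exact h2

theorem flag_exists (hP : IsPGroup p P) (φ : P →* Module.End (ZMod p) V) :
    ∀ n : ℕ, n ≤ Module.finrank (ZMod p) V → ∃ e : ℕ → V,
      LinearIndependent (ZMod p) (fun i : Fin n => e i) ∧
      ∀ j < n, ∀ g, φ g (e j) - e j ∈ Submodule.span (ZMod p) (e '' {l | l < j}) := by
  classical
  intro n
  induction n with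
  | zero =>
    intro _
    refine ⟨fun _ => 0, linearIndependent_empty_type, ?_⟩
    intro j hj
    omega
  | succ n ih =>
    intro hn
    obtain ⟨e, hli, hinv⟩ := ih (by omega)
    obtain ⟨v, hv, hvg⟩ := flag_step hP φ n hn e hli hinv
    let e' : ℕ → V := Function.update e n v
    have he' : ∀ l, l < n → e' l = e l := fun l hl => Function.update_of_ne hl.ne _ _
    have hen : e' n = v := Function.update_self _ _ _
    have himg : ∀ j, j ≤ n → e' '' {l | l < j} = e '' {l | l < j} := by
      intro j hj
      apply Set.image_congr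
      intro l hl
      exact he' l (lt_of_lt_of_le hl hj)
    refine ⟨e', ?_, ?_⟩
    · rw [linearIndependent_finSucc']
      have h1 : Fin.init (fun i : Fin (n + 1) => e' i) = fun i : Fin n => e i := by
        funext i
        exact he' i i.2
      rw [h1]
      refine ⟨hli, ?_⟩
      have h2 : e' ((Fin.last n : Fin (n + 1)) : ℕ) = v := by rw [Fin.val_last]; exact hen
      rw [h2]
      have hrange : e '' {l | l < n} = Set.range (fun i : Fin n => e i) := by
        ext x
        constructor
        · rintro ⟨l, hl, rfl⟩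
          exact ⟨⟨l, hl⟩, rfl⟩
        · rintro ⟨i, rfl⟩
          exact ⟨i, i.2, rfl⟩
      rw [← hrange]
      exact hv
    · intro j hj g
      rw [himg j (by omega)]
      rcases Nat.lt_succ_iff_lt_or_eq.mp hj with hlt | rfl
      · rw [he' j hlt]
        exact hinv j hlt g
      · rw [hen]
        exact hvg g

/-- A `p`-group acting on a finite `𝔽_p`-space is unitriangular in a suitable basis. -/
theorem flag_basis (hP : IsPGroup p P) (φ : P →* Module.End (ZMod p) V) :
    ∃ b : Module.Basis (Fin (Module.finrank (ZMod p) V)) (ZMod p) V,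
      ∀ g, UT (LinearMap.toMatrixAlgEquiv b (φ g)) := by
  classical
  haveI : Module.Finite (ZMod p) V := Module.Finite.of_finite
  obtain ⟨e, hli, hinv⟩ := flag_exists hP φ _ le_rfl
  have hsp : ⊤ ≤ Submodule.span (ZMod p) (Set.range (fun i : Fin (Module.finrank (ZMod p) V) => e i)) := by
    rw [hli.span_eq_top_of_card_eq_finrank' (by simp)]
  let b : Module.Basis (Fin (Module.finrank (ZMod p) V)) (ZMod p) V := Module.Basis.mk hli hsp
  have hb : ∀ i : Fin (Module.finrank (ZMod p) V), b i = e i := fun i => Module.Basis.mk_apply hli hsp i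
  refine ⟨b, fun g => ?_⟩
  have hentry : ∀ i j : Fin (Module.finrank (ZMod p) V), j ≤ i →
      LinearMap.toMatrixAlgEquiv b (φ g) i j = if i = j then 1 else 0 := by
    intro i j hji
    rw [LinearMap.toMatrixAlgEquiv_apply]
    have himg : e '' {l | l < (j : ℕ)} = b '' {l | l < j} := by
      ext x
      constructor
      · rintro ⟨l, hl, rfl⟩
        have hl' : l < (j : ℕ) := hl
        exact ⟨⟨l, lt_trans hl' j.2⟩, hl', hb _⟩
      · rintro ⟨l, hl, rfl⟩
        exact ⟨l, hl, (hb _).symm⟩
    have h1 : φ g (b j) - b j ∈ Submodule.span (ZMod p) (b '' {l | l < j}) := by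
      rw [hb j, ← himg]; exact hinv j j.2 g
    rw [Module.Basis.mem_span_image] at h1
    have h2 : b.repr (φ g (b j) - b j) i = 0 := by
      by_contra hne
      have hmem : i ∈ (b.repr (φ g (b j) - b j)).support := Finsupp.mem_support_iff.mpr hne
      have h3 := h1 hmem
      exact absurd (lt_of_le_of_lt hji h3) (lt_irrefl _)
    have h4 : b.repr (φ g (b j)) i = b.repr (φ g (b j) - b j) i + b.repr (b j) i := by
      rw [← Finsupp.add_apply, ← map_add, sub_add_cancel]
    rw [h4, h2, zero_add, Module.Basis.repr_self, Finsupp.single_apply]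
    by_cases hij : i = j
    · simp [hij]
    · simp [hij, Ne.symm hij]
  constructor
  · intro i
    rw [hentry i i le_rfl, if_pos rfl]
  · intro i j hji
    rw [hentry i j hji.le, if_neg hji.ne']

end flag

/-- An action of a `p`-group by additive maps on a finite `𝔽_p`-space is unitriangular. -/
theorem rep_mod {P : Type u} [Group P] [Finite P] (hP : IsPGroup p P) {V : Type v}
    [AddCommGroup V] [Module (ZMod p) V] [Finite V] (act : P → (V →+ V))
    (h1 : ∀ v, act 1 v = v) (hm : ∀ g h v, act (g * h) v = act g (act h v)) :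
    ∃ r : ℕ, Nat.card V = p ^ r ∧ ∃ ρ : P →* Mat r p, (∀ g, UT (ρ g)) ∧
      ∀ g, ρ g = 1 → ∀ v, act g v = v := by
  classical
  have hsm : ∀ g (r : ZMod p) (v : V), act g (r • v) = r • act g v := by
    intro g r v
    obtain ⟨m, rfl⟩ : ∃ m : ℕ, r = (m : ZMod p) := ⟨r.val, (ZMod.natCast_zmod_val r).symm⟩
    rw [Nat.cast_smul_eq_nsmul, Nat.cast_smul_eq_nsmul, map_nsmul]
  let toF : P → (V →ₗ[ZMod p] V) := fun g =>
    { toFun := act g
      map_add' := map_add _
      map_smul' := hsm g }
  let φ : P →* Module.End (ZMod p) V :=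
    { toFun := toF
      map_one' := LinearMap.ext h1
      map_mul' := fun g h => LinearMap.ext (hm g h) }
  obtain ⟨b, hb⟩ := flag_basis hP φ
  haveI : Module.Finite (ZMod p) V := Module.Finite.of_finite
  refine ⟨Module.finrank (ZMod p) V, ?_, ?_⟩
  · have h1 := Module.natCard_eq_pow_finrank (K := ZMod p) (V := V)
    rw [Nat.card_zmod] at h1
    exact h1
  · refine ⟨(LinearMap.toMatrixAlgEquiv b).toAlgHom.toRingHom.toMonoidHom.comp φ, hb, ?_⟩
    intro g hg v
    have h1 : LinearMap.toMatrixAlgEquiv b (φ g) = 1 := hg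
    have h2 : φ g = 1 := by
      apply (LinearMap.toMatrixAlgEquiv b).injective
      rw [h1, map_one]
    have h3 : φ g v = v := by rw [h2]; rfl
    exact h3

/-- The conjugation action of a `p`-group on a normal elementary abelian subgroup is unitriangular. -/
theorem rep_of_normal {P : Type u} [Group P] [Finite P] (hP : IsPGroup p P) {A : Subgroup P}
    (hAn : A.Normal) (hAe : Cfsg.IsElementaryAbelian p A) :
    ∃ r : ℕ, Nat.card A = p ^ r ∧ ∃ ρ : P →* Mat r p, (∀ g, UT (ρ g)) ∧
      ∀ g, ρ g = 1 → g ∈ centralizer (A : Set P) := by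
  classical
  have hAe' := Cfsg.Agent.Lib.PGroup.Basic.isElementaryAbelian_iff.mp hAe
  letI : CommGroup A :=
    { (inferInstance : Group A) with
      mul_comm := fun a b => Subtype.ext (hAe'.1 a a.2 b b.2) }
  let cj : P → (A →* A) := fun g => (MulAut.conjNormal g : A ≃* A).toMonoidHom
  have hcj : ∀ g (a : A), ((cj g a : A) : P) = g * a * g⁻¹ := fun g a => rfl
  have hexp : ∀ x : Additive A, p • x = 0 := by
    intro x
    apply Additive.toMul.injective
    apply Subtype.ext
    show ((Additive.toMul x : A) : P) ^ p = 1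
    exact hAe'.2 _ (Additive.toMul x).2
  obtain ⟨r, hr, ρ, hU, hker⟩ := @rep_mod p hp P _ _ hP (Additive A) _
    (AddCommGroup.zmodModule hexp) inferInstance
    (fun g => (cj g).toAdditive)
    (by
      intro x
      apply Additive.toMul.injective
      apply Subtype.ext
      show ((cj 1 (Additive.toMul x) : A) : P) = ((Additive.toMul x : A) : P)
      rw [hcj]
      simp)
    (by
      intro g h x
      apply Additive.toMul.injective
      apply Subtype.ext
      show ((cj (g * h) (Additive.toMul x) : A) : P) =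
        ((cj g (cj h (Additive.toMul x)) : A) : P)
      rw [hcj, hcj, hcj]
      group)
  refine ⟨r, hr, ρ, hU, ?_⟩
  intro g hg
  rw [mem_centralizer_iff]
  intro a ha
  have h3 := hker g hg (Additive.ofMul (⟨a, ha⟩ : A))
  have h4 : ((cj g ⟨a, ha⟩ : A) : P) = a :=
    congrArg (fun x : Additive A => ((Additive.toMul x : A) : P)) h3
  rw [hcj] at h4
  show a * g = g * a
  calc a * g = (g * a * g⁻¹) * g := by rw [h4]
    _ = g * a := by group

end Cfsg.Agent.Lib.PRank
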