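import Mathlib
import Cfsg.Agent.Lib.PRank.PCentral
import Cfsg.Agent.Lib.PGroup.Basic

/-!
# Maximal normal elementary abelian subgroups (`p` odd)

If `A` is maximal among the normal elementary abelian subgroups of a finite `p`-group, `p` odd,
then every element of order `p` of `C(A)` lies in `A`.
-/

set_option autoImplicit false
set_option linter.unusedSectionVars false
set_option linter.unusedVariables false
set_option linter.style.haveILetI false

namespace Cfsg.Agent.Lib.PRank

open Subgroup
open scoped commutatorElement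

universe u

variable {p : ℕ} [hp : Fact p.Prime]

/-- Hypothesis of the key lemma: the solutions of `t ^ p = 1` in `T` are central in `T` and commute
with `x`. -/
def HT (p : ℕ) {G : Type u} [Group G] (T : Subgroup G) (x : G) : Prop :=
  ∀ t ∈ T, t ^ p = 1 → (∀ s ∈ T, t * s = s * t) ∧ t * x = x * t

theorem HT.pcen {G : Type u} [Group G] {T : Subgroup G} {x : G} (h : HT p T x) : PCen p T := by
  intro t ht
  have h1 : (t : G) ^ p = 1 := by simpa using congrArg Subtype.val ht
  rw [mem_center_iff]
  intro s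
  apply Subtype.ext
  exact ((h t t.2 h1).1 s s.2).symm

/-- The solutions of `t ^ p = 1` in `T`, as a subgroup of `G`. -/
def omT {G : Type u} [Group G] {T : Subgroup G} {x : G} (h : HT p T x) : Subgroup G where
  carrier := {t | t ∈ T ∧ t ^ p = 1}
  one_mem' := ⟨T.one_mem, one_pow _⟩
  mul_mem' := by
    rintro a b ⟨ha, ha1⟩ ⟨hb, hb1⟩
    refine ⟨T.mul_mem ha hb, ?_⟩
    have : Commute a b := (h a ha ha1).1 b hb
    rw [this.mul_pow, ha1, hb1, one_mul]
  inv_mem' := by
    rintro a ⟨ha, ha1⟩
    exact ⟨T.inv_mem ha, by rw [inv_pow, ha1, inv_one]⟩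

theorem mem_omT {G : Type u} [Group G] {T : Subgroup G} {x : G} (h : HT p T x) {t : G} :
    t ∈ omT h ↔ t ∈ T ∧ t ^ p = 1 := Iff.rfl

instance omT_normal {G : Type u} [Group G] {T : Subgroup G} [hT : T.Normal] {x : G}
    (h : HT p T x) : (omT h).Normal := by
  constructor
  rintro a ⟨ha, ha1⟩ g
  exact ⟨hT.conj_mem a ha g, by rw [conj_pow, ha1]; group⟩

/-- `⁅x, t⁆` for `t ∈ T` of order dividing `p²`, modulo the solutions of `t ^ p = 1`. -/
theorem comm_mem_omT (hodd : p ≠ 2) {G : Type u} [Group G] [Finite G] (hG : IsPGroup p G)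
    {T : Subgroup G} [hT : T.Normal] {x : G} (h : HT p T x) {t : G} (ht : t ∈ T)
    (ht2 : t ^ p ^ 2 = 1) {g : G} (hg : g ∈ T ∨ g = x) : (g * t * g⁻¹) * t⁻¹ ∈ omT h := by
  have hcT : (g * t * g⁻¹) ∈ T := hT.conj_mem t ht g
  have hcen := h.pcen
  have hTp : IsPGroup p T := hG.to_subgroup T
  refine ⟨T.mul_mem hcT (T.inv_mem ht), ?_⟩
  let u : T := ⟨g * t * g⁻¹, hcT⟩
  let v : T := ⟨t⁻¹, T.inv_mem ht⟩
  have hu : u ^ p ^ 2 = 1 := by
    apply Subtype.ext
    show (g * t * g⁻¹) ^ p ^ 2 = 1
    rw [conj_pow, ht2]; group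
  have hv : v ^ p ^ 2 = 1 := by
    apply Subtype.ext
    show (t⁻¹) ^ p ^ 2 = 1
    rw [inv_pow, ht2, inv_one]
  have h1 := congrArg Subtype.val (pmap hodd hTp hcen hu hv)
  have h2 : ((g * t * g⁻¹) * t⁻¹) ^ p = (g * t * g⁻¹) ^ p * (t⁻¹) ^ p := by
    simpa [u, v] using h1
  rw [h2, conj_pow, inv_pow]
  have hpow : (t ^ p) ^ p = 1 := by rw [← pow_mul, ← sq]; exact ht2
  have htp : t ^ p ∈ T := T.pow_mem ht p
  have hcomm : g * t ^ p * g⁻¹ = t ^ p := by
    rcases hg with hg | rfl
    · have := (h _ htp hpow).1 g hg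
      rw [← this]; group
    · have := (h _ htp hpow).2
      rw [← this]; group
  rw [hcomm]; group

/-- The key lemma: under `HT p T x` with `x ^ p = 1`, `(t x) ^ p = 1` forces `t ^ p = 1`. -/
theorem key_aux (hodd : p ≠ 2) : ∀ n : ℕ, ∀ (G : Type u) [Group G] [Finite G], IsPGroup p G →
    ∀ (T : Subgroup G) [T.Normal] (x : G), Nat.card T ≤ n → HT p T x → x ^ p = 1 →
      ∀ t ∈ T, (t * x) ^ p = 1 → t ^ p = 1 := by
  intro n
  induction n with
  | zero =>
    intro G _ _ _ T _ x hc
    have : 0 < Nat.card T := Nat.card_pos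
    omega
  | succ n ih =>
    intro G _ _ hG T hT x hc hH hx t ht htx
    by_cases hbot : omT hH = ⊥
    · -- `T` is trivial by Cauchy
      have hT1 : ∀ s : T, s = 1 := by
        by_contra hne
        push Not at hne
        obtain ⟨s, hs⟩ := hne
        have hnt : Nontrivial T := ⟨⟨s, 1, hs⟩⟩
        obtain ⟨k, hk⟩ := IsPGroup.iff_card.mp (hG.to_subgroup T)
        have hk0 : k ≠ 0 := by
          rintro rfl
          rw [pow_zero] at hk
          exact absurd hk (Finite.one_lt_card).ne'
        have hdvd : p ∣ Nat.card T := by rw [hk]; exact dvd_pow_self p hk0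
        obtain ⟨y, hy⟩ := exists_prime_orderOf_dvd_card' p hdvd
        have hy1 : (y : G) ∈ omT hH := by
          refine ⟨y.2, ?_⟩
          have := congrArg Subtype.val (pow_orderOf_eq_one y)
          rw [hy] at this
          simpa using this
        rw [hbot, mem_bot] at hy1
        have : y = 1 := Subtype.ext hy1
        rw [this, orderOf_one] at hy
        exact hp.out.one_lt.ne hy
      have := hT1 ⟨t, ht⟩
      have h2 : t = 1 := congrArg Subtype.val this
      rw [h2, one_pow]
    · -- pass to the quotient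
      let E := omT hH
      have hEn : E.Normal := omT_normal hH
      let π := QuotientGroup.mk' E
      let Tb : Subgroup (G ⧸ E) := T.map π
      have hTbn : Tb.Normal := Subgroup.Normal.map hT π (QuotientGroup.mk'_surjective E)
      have hE_le : E ≤ T := fun a ha => ha.1
      -- the cardinality drops
      have hcardTb : Nat.card Tb ≤ n := by
        let g : T →* Tb := π.subgroupMap T
        have hgs : Function.Surjective g := π.subgroupMap_surjective T
        have hgn : ¬ Function.Injective g := by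
          intro hinj
          apply hbot
          rw [eq_bot_iff]
          intro e he
          have h1 : g ⟨e, hE_le he⟩ = g 1 := by
            apply Subtype.ext
            show π e = π 1
            rw [map_one, ← MonoidHom.mem_ker, QuotientGroup.ker_mk']
            exact he
          have h2 := hinj h1
          have h3 : e = 1 := congrArg Subtype.val h2
          rw [mem_bot]; exact h3
        by_contra hcon
        have hle : Nat.card T ≤ Nat.card Tb := by omega
        exact hgn (hgs.bijective_of_nat_card_le hle).1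
      have hHb : HT p Tb (π x) := by
        rintro _ ⟨s, hs, rfl⟩ hs1
        have hs2 : s ^ p ∈ E := by
          rw [← QuotientGroup.ker_mk' E, MonoidHom.mem_ker, map_pow]
          exact hs1
        have hs3 : s ^ p ^ 2 = 1 := by
          have := hs2.2
          rwa [← pow_mul, ← sq] at this
        constructor
        · rintro _ ⟨r, hr, rfl⟩
          have h1 := comm_mem_omT hodd hG hH hs hs3 (g := r) (Or.inl hr)
          have h2 : π ((r * s * r⁻¹) * s⁻¹) = 1 := by
            rw [← MonoidHom.mem_ker, QuotientGroup.ker_mk']; exact h1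
          simp only [map_mul, map_inv] at h2
          rw [mul_inv_eq_one, mul_inv_eq_iff_eq_mul] at h2
          exact h2.symm
        · have h1 := comm_mem_omT hodd hG hH hs hs3 (g := x) (Or.inr rfl)
          have h2 : π ((x * s * x⁻¹) * s⁻¹) = 1 := by
            rw [← MonoidHom.mem_ker, QuotientGroup.ker_mk']; exact h1
          simp only [map_mul, map_inv] at h2
          rw [mul_inv_eq_one, mul_inv_eq_iff_eq_mul] at h2
          exact h2.symm
      have hxb : (π x) ^ p = 1 := by rw [← map_pow, hx, map_one]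
      have htb : (π t * π x) ^ p = 1 := by rw [← map_mul, ← map_pow, htx, map_one]
      have hres := ih (G ⧸ E) (hG.to_quotient E) Tb (π x) hcardTb hHb hxb (π t) ⟨t, ht, rfl⟩ htb
      have ht2 : t ^ p ∈ E := by
        rw [← QuotientGroup.ker_mk' E, MonoidHom.mem_ker, map_pow]
        exact hres
      have ht3 : t ^ p ^ 2 = 1 := by
        have := ht2.2
        rwa [← pow_mul, ← sq] at this
      -- now class two
      have hc1 := comm_mem_omT hodd hG hH ht ht3 (g := x) (Or.inr rfl)
      have hc2 := hc1.2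
      have hc3 := hc1.1
      have hcomm : Commute x ⁅x, t⁆ := by
        rw [commutatorElement_def]
        exact ((hH _ hc3 hc2).2).symm
      have hcomm2 : Commute t ⁅x, t⁆ := by
        rw [commutatorElement_def]
        exact ((hH _ hc3 hc2).1 t ht).symm
      have := Cfsg.Agent.Lib.PGroup.Basic.mul_pow_of_commutator_central (x := t) (y := x)
        hcomm2 hcomm p
      rw [this, hx, mul_one, commutatorElement_def, choose_pow_eq_one hodd hc2, mul_one] at htx
      exact htx

theorem key_lemma (hodd : p ≠ 2) {G : Type u} [Group G] [Finite G] (hG : IsPGroup p G)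
    {T : Subgroup G} [T.Normal] {x : G} (hH : HT p T x) (hx : x ^ p = 1) {t : G} (ht : t ∈ T)
    (htx : (t * x) ^ p = 1) : t ^ p = 1 :=
  key_aux hodd _ G hG T x le_rfl hH hx t ht htx

/-- If `A` is maximal among the normal elementary abelian subgroups of a `p`-group, `p` odd, then
`A` contains every element of order `p` of its centralizer. -/
theorem omega_centralizer (hodd : p ≠ 2) {P : Type u} [Group P] [Finite P] (hP : IsPGroup p P)
    {A : Subgroup P} (hAn : A.Normal) (hAe : Cfsg.IsElementaryAbelian p A)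
    (hmax : ∀ B : Subgroup P, B.Normal → Cfsg.IsElementaryAbelian p B → A ≤ B → B ≤ A)
    {x : P} (hxC : x ∈ centralizer (A : Set P)) (hxp : x ^ p = 1) : x ∈ A := by
  classical
  have hAe' := Cfsg.Agent.Lib.PGroup.Basic.isElementaryAbelian_iff.mp hAe
  let C : Subgroup P := centralizer (A : Set P)
  have hCn : C.Normal := by
    haveI := hAn
    exact Subgroup.normal_centralizer
  have hAC : A ≤ C := by
    intro a ha
    rw [mem_centralizer_iff]
    intro b hb
    exact hAe'.1 b hb a ha
  let SS : Set (Subgroup P) := {S | S.Normal ∧ A ≤ S ∧ S ≤ C ∧ ∀ s ∈ S, s ^ p = 1 → s ∈ A}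
  have hASS : A ∈ SS := ⟨hAn, le_rfl, hAC, fun s hs _ => hs⟩
  obtain ⟨S, hAS, hSmax⟩ := (Set.toFinite SS).exists_le_maximal hASS
  obtain ⟨hSn, -, hSC, hSom⟩ := hSmax.1
  by_contra hxA
  have hxS : x ∉ S := fun h => hxA (hSom x h hxp)
  -- a chief factor of `P` between `S` and `C`
  let π := QuotientGroup.mk' S
  let Cb : Subgroup (P ⧸ S) := C.map π
  have hCbn : Cb.Normal := Subgroup.Normal.map hCn π (QuotientGroup.mk'_surjective S)
  have hCbne : Cb ≠ ⊥ := by
    intro h
    have h1 : π x ∈ Cb := ⟨x, hxC, rfl⟩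
    rw [h, mem_bot, ← MonoidHom.mem_ker, QuotientGroup.ker_mk'] at h1
    exact hxS h1
  have hPb : IsPGroup p (P ⧸ S) := hP.to_quotient S
  have hinf := Cfsg.Agent.Lib.PGroup.Basic.inf_center_ne_bot hPb hCbne
  have hWp : IsPGroup p (Cb ⊓ center (P ⧸ S) : Subgroup (P ⧸ S)) := hPb.to_subgroup _
  have hdvd : p ∣ Nat.card (Cb ⊓ center (P ⧸ S) : Subgroup (P ⧸ S)) := by
    rcases hWp.card_eq_or_dvd with h | h
    · exact absurd ((Subgroup.eq_bot_iff_card _).mpr h) hinf
    · exact h
  obtain ⟨z, hz⟩ := exists_prime_orderOf_dvd_card' p hdvd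
  have hzCb : (z : P ⧸ S) ∈ Cb := z.2.1
  have hzZ : (z : P ⧸ S) ∈ center (P ⧸ S) := z.2.2
  have hzo : orderOf (z : P ⧸ S) = p := by rw [← hz]; exact Subgroup.orderOf_coe z
  let T : Subgroup P := (zpowers (z : P ⧸ S)).comap π
  have hTn : T.Normal := by
    have : (zpowers (z : P ⧸ S)).Normal := by
      constructor
      rintro _ ⟨k, rfl⟩ g
      have hc := mem_center_iff.mp hzZ g
      refine ⟨k, ?_⟩
      simp only
      have h2 : Commute g (z : P ⧸ S) := hc
      have h3 := h2.zpow_right k
      rw [h3.eq]; group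
    exact Subgroup.Normal.comap this π
  have hST : S ≤ T := by
    intro s hs
    have : π s = 1 := by rw [← MonoidHom.mem_ker, QuotientGroup.ker_mk']; exact hs
    show π s ∈ zpowers (z : P ⧸ S)
    rw [this]; exact one_mem _
  have hTC : T ≤ C := by
    intro t ht
    have h1 : π t ∈ Cb := by
      have h2 : zpowers (z : P ⧸ S) ≤ Cb := (zpowers_le).mpr hzCb
      exact h2 ht
    obtain ⟨c, hc, hct⟩ := h1
    have h2 : c⁻¹ * t ∈ S := QuotientGroup.eq.mp hct
    have h3 := C.mul_mem hc (hSC h2)
    simpa using h3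
  have hzne : (z : P ⧸ S) ≠ 1 := by
    intro h
    rw [h, orderOf_one] at hzo
    exact hp.out.one_lt.ne hzo
  have hSneT : S ≠ T := by
    intro h
    have hz1 : (z : P ⧸ S) ∈ zpowers (z : P ⧸ S) := mem_zpowers _
    obtain ⟨t, ht0⟩ := QuotientGroup.mk'_surjective S (z : P ⧸ S)
    have ht : t ∈ T := by
      show π t ∈ zpowers (z : P ⧸ S)
      have : π t = (z : P ⧸ S) := ht0
      rw [this]; exact hz1
    rw [← h] at ht
    apply hzne
    rw [← ht0, ← MonoidHom.mem_ker, QuotientGroup.ker_mk']
    exact ht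
  -- an element of order `p` of `T` outside `A`
  have hTnot : T ∉ SS := fun hT => hSneT (le_antisymm hST (hSmax.2 hT hST))
  have hex : ∃ y ∈ T, y ^ p = 1 ∧ y ∉ A := by
    by_contra hcon
    push Not at hcon
    exact hTnot ⟨hTn, hAS.trans hST, hTC, hcon⟩
  obtain ⟨y, hyT, hyp, hyA⟩ := hex
  have hyS : y ∉ S := fun h => hyA (hSom y h hyp)
  have hyC : y ∈ C := hTC hyT
  have hcommA : ∀ c ∈ C, ∀ a ∈ A, c * a = a * c := fun c hc a ha =>
    ((mem_centralizer_iff.mp hc) a ha).symm
  -- `E = A ⟨y⟩` contains all solutions of `t ^ p = 1` in `T`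
  let E : Subgroup P := A ⊔ zpowers y
  have hEe : Cfsg.IsElementaryAbelian p E :=
    Cfsg.Agent.Lib.PGroup.Basic.IsElementaryAbelian.sup_zpowers hAe hyp (hcommA y hyC)
  have hEe' := Cfsg.Agent.Lib.PGroup.Basic.isElementaryAbelian_iff.mp hEe
  have hET : E ≤ T := sup_le (hAS.trans hST) ((zpowers_le).mpr hyT)
  have hyb : π y ≠ 1 := by
    intro h
    rw [← MonoidHom.mem_ker, QuotientGroup.ker_mk'] at h
    exact hyS h
  have hgen : zpowers (π y) = zpowers (z : P ⧸ S) := by
    have hle : zpowers (π y) ≤ zpowers (z : P ⧸ S) := (zpowers_le).mpr hyT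
    apply Subgroup.eq_of_le_of_card_ge hle
    rw [Nat.card_zpowers, hzo, Nat.card_zpowers]
    have h1 : orderOf (π y) ∣ p := orderOf_dvd_of_pow_eq_one (by rw [← map_pow, hyp, map_one])
    rcases (Nat.dvd_prime hp.out).mp h1 with h | h
    · rw [orderOf_eq_one_iff] at h
      exact absurd h hyb
    · exact h.ge
  have hall : ∀ t ∈ T, t ^ p = 1 → t ∈ E := by
    intro t ht htp
    have h1 : π t ∈ zpowers (π y) := by rw [hgen]; exact ht
    obtain ⟨k, hk⟩ := h1
    simp only at hk
    -- `t = s * y ^ k`
    let s : P := t * (y ^ k)⁻¹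
    have hs : s ∈ S := by
      rw [← QuotientGroup.ker_mk' S, MonoidHom.mem_ker]
      show π (t * (y ^ k)⁻¹) = 1
      rw [map_mul, map_inv, map_zpow, hk, mul_inv_cancel]
    have hyk : (y ^ k) ^ p = 1 := by rw [← zpow_natCast, zpow_comm, zpow_natCast, hyp, one_zpow]
    have hykC : y ^ k ∈ C := C.zpow_mem hyC k
    have hHT : HT p S (y ^ k) := by
      intro s' hs' hs'p
      have hs'A := hSom s' hs' hs'p
      refine ⟨fun r hr => ?_, ?_⟩
      · exact ((hcommA r (hSC hr) s' hs'A)).symm
      · exact ((hcommA _ hykC s' hs'A)).symm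
    have hsyk : (s * y ^ k) ^ p = 1 := by
      have : s * y ^ k = t := by simp [s]
      rw [this, htp]
    have hsp : s ^ p = 1 := by
      haveI := hSn
      exact key_lemma hodd hP hHT hyk hs hsyk
    have hsA := hSom s hs hsp
    have : t = s * y ^ k := by simp [s]
    rw [this]
    exact E.mul_mem (Subgroup.mem_sup_left hsA)
      (Subgroup.mem_sup_right (zpow_mem_zpowers y k))
  have hEn : E.Normal := by
    constructor
    intro e he g
    apply hall _ (hTn.conj_mem e (hET he) g)
    rw [conj_pow, hEe'.2 e he]; group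
  have hEA := hmax E hEn hEe le_sup_left
  exact hyA (hEA (Subgroup.mem_sup_right (mem_zpowers y)))

end Cfsg.Agent.Lib.PRank
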